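import Groth.Agent.Vancyc.H881.Asm4003
import Groth.Agent.Vancyc.H686.EvenVan
import Groth.Agent.Vancyc.H685.EvenTopMain

/-!
# The Galois action on the cohomology of the even model

`R` a strictly henselian discrete valuation ring, `N` invertible in `R`, `m ≥ 1`, `α`, `β` the roots of `w² + b w + c` in `Ω`,
`α ≠ β`.
* `galH_fix` : if `σ` fixes `α` and `β` it acts trivially on `H^q` of the geometric generic fibre of `modelEven R m b c`;
* `galH_swap` : if `σ` exchanges `α` and `β` it acts as `-1` on `H^{2m}`.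
-/

set_option autoImplicit false
universe u
open CategoryTheory CategoryTheory.Limits AlgebraicGeometry MvPolynomial

namespace Groth.Agent.Vancyc.H881.EvenFinal

open Groth.Agent.Vancyc.H685 Groth.Agent.Vancyc.H685.StdModel Groth.Agent.Vancyc.H694.StdT
  Groth.Agent.Vancyc.H881.Bund Groth.Agent.Vancyc.H881.GalEven

section Top

variable {Ω : Type u} [Field Ω] [IsSepClosed Ω] (m : ℕ) {N : ℕ} (hN : (N : Ω) ≠ 0)

include hN in
/-- The involution acts as `-1`. -/
theorem bh_stdTau (q : ℕ) (z : BH (Spec (CommRingCat.of (stdRing Ω m))) (ZMod N) (q + 1)) :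
    bh (ZMod N) (stdTau Ω m) (q + 1) z = -z :=
  EvenHC.HC_τ (MvPolynomial (Fin m) Ω) (fun i : Fin m => MvPolynomial.X i)
    (EvenHC.isUnit_mv Ω m (IsUnit.mk0 _ hN)) q
    (EvenTop.subsingleton_HH_aff hN m (q + 1) (Nat.succ_pos q)) z

/-- `EtCoh.H` and `BH`. -/
theorem nonempty_BH_of (X : Scheme.{u}) (M : Type) [AddCommGroup M] (q : ℕ)
    (h : Nonempty (EtCoh.H X (EtCoh.const X M) q ≃+ M)) : Nonempty (BH X M q ≃+ M) := h

include hN in
/-- `H^{2m}` of the standard quadric. -/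
theorem nonempty_std (hm : 0 < m) :
    Nonempty (BH (Spec (CommRingCat.of (stdRing Ω m))) (ZMod N) (2 * m) ≃+ ZMod N) :=
  nonempty_BH_of _ _ _ (EvenTopMain.H_std_top hN m hm)

end Top

section Std

variable {R K Ω : Type u} [CommRing R] [Field K] [Algebra R K] [Field Ω] [IsSepClosed Ω]
  [Algebra K Ω] [Algebra R Ω] [IsScalarTower R K Ω]

/-- The Galois action on the cohomology of the standard quadric is trivial. -/
theorem bh_galGeom_std' [HenselianLocalRing R] [IsSepClosed (IsLocalRing.ResidueField R)] {N : ℕ}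
    (hN : IsUnit (N : R)) (m q : ℕ) (σ : Ω ≃ₐ[K] Ω)
    (z : BH (VanCyc.fib R (stdStr R m) Ω) (ZMod N) q) :
    bh (ZMod N) (VanCyc.galGeom (stdStr R m) σ) q z = z := by
  have i1 : PreservesFiniteLimits (EtCoh.pull (VanCyc.galGeom (stdStr R m) σ)) :=
    Groth.Agent.S0101.result _
  have hM : ∀ x : (AddCommGrpCat.of (ULift.{u + 1} (ZMod N)) : Type (u + 1)), N • x = 0 := by
    rintro ⟨x⟩
    apply ULift.ext
    change N • x = 0
    rw [nsmul_eq_mul, ZMod.natCast_self, zero_mul]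
  have h := Groth.Agent.Vancyc.H686.EvenVan.galH_std (R := R) m
    (Groth.Agent.Vancyc.H686.VanFinal.isUnit_spec hN) σ _ hM q
  have h1 := bh_galGeom_eq_smul (stdStr R m) σ (ZMod N) q i1 1 (by rw [one_smul]; exact h) z
  rwa [one_smul] at h1

theorem bh_galGeom_std (hR : EtCoh.IsStrictlyHenselianLocalRing R) {N : ℕ}
    (hN : IsUnit (N : R)) (m q : ℕ) (σ : Ω ≃ₐ[K] Ω)
    (z : BH (VanCyc.fib R (stdStr R m) Ω) (ZMod N) q) :
    bh (ZMod N) (VanCyc.galGeom (stdStr R m) σ) q z = z := by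
  obtain ⟨hH, hS⟩ := hR
  exact bh_galGeom_std' hN m q σ z

theorem natCast_ne_zero (R Ω : Type u) [CommRing R] [Field Ω] [Algebra R Ω] {N : ℕ}
    (hN : IsUnit (N : R)) : (N : Ω) ≠ 0 := by
  have h := (hN.map (algebraMap R Ω)).ne_zero
  rwa [map_natCast] at h

end Std

section Even

variable (R K Ω : Type u) [CommRing R] [IsDomain R] [IsDiscreteValuationRing R]
  (hR : EtCoh.IsStrictlyHenselianLocalRing R) [Field K] [Algebra R K] [IsFractionRing R K] [Field Ω]
  [Algebra K Ω] [IsSepClosed Ω] [Algebra R Ω] [IsScalarTower R K Ω] {N : ℕ} (hN : IsUnit (N : R))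
  (m : ℕ) (b c : R) (α β : Ω) (h1 : α + β = - algebraMap R Ω b) (h2 : α * β = algebraMap R Ω c)
  (h3 : α ≠ β) (σ : Ω ≃ₐ[K] Ω)

include hR hN h1 h2 h3

/-- `σ` fixes the roots: it acts trivially. -/
theorem galH_fix [PreservesFiniteLimits (EtCoh.pull (VanCyc.galGeom (modelEven R m b c) σ))]
    (hα : σ α = α) (hβ : σ β = β) (q : ℕ) :
    VanCyc.galH (modelEven R m b c) σ (EtCoh.const _ (ZMod N)) q = (1 : ℤ) • AddMonoidHom.id _ :=
  galH_eq_smul _ σ (ZMod N) q inferInstance 1 (bh_model_fix R K Ω m b c α β h1 h2 h3 (ZMod N) q σ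
    (bh_galGeom_std hR hN m q σ) hα hβ)

/-- `σ` exchanges the roots: it acts as `-1` in degree `2m`. -/
theorem galH_swap (hm : 0 < m)
    [PreservesFiniteLimits (EtCoh.pull (VanCyc.galGeom (modelEven R m b c) σ))]
    (hα : σ α = β) (hβ : σ β = α) :
    VanCyc.galH (modelEven R m b c) σ (EtCoh.const _ (ZMod N)) (2 * m) =
      (-1 : ℤ) • AddMonoidHom.id _ := by
  obtain ⟨k, rfl⟩ : ∃ k, m = k + 1 := ⟨m - 1, by omega⟩
  exact galH_eq_smul _ σ (ZMod N) _ inferInstance (-1) (bh_model_swap R K Ω (k + 1) b c α β h1 h2 h3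
    (ZMod N) _ σ (bh_galGeom_std hR hN (k + 1) _ σ) (bh_fibTau_eq_neg R (k + 1) Ω (ZMod N) _
      (bh_stdTau (k + 1) (natCast_ne_zero R Ω hN) (2 * k + 1))) hα hβ)

end Even

section Final

variable (R K Ω : Type u) [CommRing R] [IsDomain R] [IsDiscreteValuationRing R]
    (hR : EtCoh.IsStrictlyHenselianLocalRing R) [Field K] [Algebra R K] [IsFractionRing R K] [Field Ω] [Algebra K Ω]
    [IsSepClosure K Ω] [IsSepClosed Ω] [Algebra R Ω] [IsScalarTower R K Ω]
    (h2 : IsUnit (2 : R)) (t : R) (ht : Irreducible t) (N : ℕ) (hN : IsUnit (N : R))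
    (m : ℕ) (hm : 1 ≤ m) (a : Fin (2 * m + 1) → Fin (2 * m + 1) → R) (ha : VanCyc.QuadNondeg a)
    (w : Rˣ) (v : ℕ) (σ : Ω ≃ₐ[K] Ω)

include hR h2 ht hN hm ha in
/-- Monodromy of the even-dimensional affine quadric. -/
theorem final
    [PreservesFiniteLimits (EtCoh.pull (VanCyc.galGeom (Spec.map (CommRingCat.ofHom (algebraMap R (VanCyc.quadRing R a ((w : R) * t ^ v))))) σ))] :
    Nonempty (EtCoh.H (VanCyc.fib R (Spec.map (CommRingCat.ofHom (algebraMap R (VanCyc.quadRing R a ((w : R) * t ^ v))))) Ω)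
        ((EtCoh.pull (VanCyc.jA R (Spec.map (CommRingCat.ofHom (algebraMap R (VanCyc.quadRing R a ((w : R) * t ^ v))))) Ω)).obj (EtCoh.const _ (ZMod N))) (2 * m) ≃+ ZMod N) ∧
      VanCyc.galH (Spec.map (CommRingCat.ofHom (algebraMap R (VanCyc.quadRing R a ((w : R) * t ^ v))))) σ (EtCoh.const _ (ZMod N)) (2 * m) =
        (VanCyc.quadChar (algebraMap R K t) σ) ^ v • AddMonoidHom.id _ := by
  have hNΩ : (N : Ω) ≠ 0 := natCast_ne_zero R Ω hN
  have hτ : ∀ z : BH (Spec (CommRingCat.of (stdRing Ω m))) (ZMod N) (2 * m),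
      bh (ZMod N) (stdTau Ω m) (2 * m) z = -z := by
    have key : ∀ q : ℕ, 0 < q → ∀ z : BH (Spec (CommRingCat.of (stdRing Ω m))) (ZMod N) q,
        bh (ZMod N) (stdTau Ω m) q z = -z := by
      intro q hq
      obtain ⟨k, rfl⟩ : ∃ k, q = k + 1 := ⟨q - 1, by omega⟩
      exact bh_stdTau m hNΩ k
    exact key (2 * m) (by omega)
  exact Asm4003.main R K Ω hR h2 t ht N m a ha w v σ (bh_galGeom_std hR hN m (2 * m) σ) hτ
    (nonempty_std m hNΩ hm)

end Final

end Groth.Agent.Vancyc.H881.EvenFinal
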